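import Mathlib
import Cfsg.Prelude.Def_Solvable
import Cfsg.Agent.Lib.Helper1.Schmidt
import Cfsg.Agent.Lib.Lead.Basic

/-!
The Frobenius kernel of a Frobenius complement `H` has exactly `[G : H]` elements.
-/

namespace Cfsg.Agent.Lib.Helper7.FK

open scoped Pointwise

open Cfsg.Agent.Lib.Lead

theorem card_frobeniusKernel {G : Type*} [Group G] [Finite G] (H : Subgroup G)
    (hH : Cfsg.IsFrobeniusComplement H) : Nat.card (Cfsg.frobeniusKernel H) = H.index := by
  classical
  haveI : Fintype G := Fintype.ofFinite G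
  have hmal : ∀ g : G, ∀ m ∈ H, m ≠ 1 → g⁻¹ * m * g ∈ H → g ∈ H := by
    intro g m hm hm1 hgm
    by_contra hg
    have h1 := hH.2.2 g hg
    have h2 : m ∈ H ⊓ MulAut.conj g • H := ⟨hm, mem_conj_smul.mpr hgm⟩
    rw [h1, Subgroup.mem_bot] at h2
    exact hm1 h2
  have h1 := Cfsg.Agent.Lib.Helper1.card_conj_union_add_index H hmal
  have h2 := Finset.card_filter_add_card_filter_not (s := (Finset.univ : Finset G))
    (fun y : G => y ≠ 1 ∧ ∃ g : G, g⁻¹ * y * g ∈ H)
  have h3 : (Finset.univ.filter (fun y : G => ¬ (y ≠ 1 ∧ ∃ g : G, g⁻¹ * y * g ∈ H))).card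
      = H.index := by
    rw [Finset.card_univ] at h2
    have h4 : (Finset.univ.filter (fun y : G => y ≠ 1 ∧ ∃ g : G, g⁻¹ * y * g ∈ H)).card + H.index
        = Fintype.card G := by
      convert h1 using 2
    omega
  rw [← h3, Nat.card_eq_fintype_card, Fintype.card_subtype]
  congr 1
  ext y
  simp only [Finset.mem_filter, Finset.mem_univ, true_and]
  show (y = 1 ∨ ∀ g : G, y ∉ MulAut.conj g • H) ↔ _
  constructor
  · rintro (h | h) ⟨hne, g, hg⟩
    · exact hne h
    · exact h g (mem_conj_smul.mpr hg)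
  · intro h
    by_cases h1 : y = 1
    · left; exact h1
    · right
      intro g hg
      exact h ⟨h1, g, mem_conj_smul.mp hg⟩

end Cfsg.Agent.Lib.Helper7.FK
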