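import Mathlib
import Cfsg.Agent.Lib.Lead.Char17
import Cfsg.Agent.Lib.Lead.Galois

/-!
Galois conjugation of characters: if `k` is coprime to `|G|` then `g ↦ χ (g ^ k)` is again a
character (irreducible if `χ` is).
-/

set_option autoImplicit false

namespace Cfsg.Agent.Lib.Helper7.Gal

open Cfsg.Agent.Lib.Lead

/-- a field automorphism of a subfield extends to an algebraically closed overfield -/
theorem exists_ringEquiv_extending {R L : Type*} [Field R] [Field L] [IsAlgClosed L]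
    (φ : R →+* L) (σ : R ≃+* R) : ∃ τ : L ≃+* L, ∀ x : R, τ (φ x) = φ (σ x) := by
  letI : Algebra R L := φ.toAlgebra
  haveI : FaithfulSMul R L := (faithfulSMul_iff_algebraMap_injective R L).mpr φ.injective
  obtain ⟨ι, v, hv⟩ := exists_isTranscendenceBasis' R L
  haveI := IsAlgClosed.isAlgClosure_of_transcendence_basis v hv
  let e : Algebra.adjoin R (Set.range v) ≃+* Algebra.adjoin R (Set.range v) :=
    hv.1.aevalEquiv.symm.toRingEquiv.trans
      ((MvPolynomial.mapEquiv ι σ).trans hv.1.aevalEquiv.toRingEquiv)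
  refine ⟨IsAlgClosure.equivOfEquiv L L e, fun x => ?_⟩
  have h1 : φ x = algebraMap (Algebra.adjoin R (Set.range v)) L
      (algebraMap R (Algebra.adjoin R (Set.range v)) x) := rfl
  have h2 : e (algebraMap R (Algebra.adjoin R (Set.range v)) x)
      = algebraMap R (Algebra.adjoin R (Set.range v)) (σ x) := by
    have h3 : hv.1.aevalEquiv.symm (algebraMap R (Algebra.adjoin R (Set.range v)) x)
        = MvPolynomial.C x := by
      rw [AlgEquiv.symm_apply_eq, ← MvPolynomial.algebraMap_eq, AlgEquiv.commutes]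
    show hv.1.aevalEquiv ((MvPolynomial.mapEquiv ι σ) (hv.1.aevalEquiv.symm
      (algebraMap R (Algebra.adjoin R (Set.range v)) x))) = _
    rw [h3, MvPolynomial.mapEquiv_apply, MvPolynomial.map_C, ← MvPolynomial.algebraMap_eq,
      AlgEquiv.commutes]
    rfl
  rw [h1, IsAlgClosure.equivOfEquiv_algebraMap, h2]
  rfl

/-- an automorphism of `ℂ` raising all `N`-th roots of unity to the `k`-th power -/
theorem exists_aut_pow (N : ℕ) [NeZero N] (k : ℕ) (hk : k.Coprime N) :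
    ∃ τ : ℂ ≃+* ℂ, ∀ μ : ℂ, μ ^ N = 1 → τ μ = μ ^ k := by
  let φ₀ : CyclotomicField N ℚ →ₐ[ℚ] ℂ := IsAlgClosed.lift
  have hζ := IsCyclotomicExtension.zeta_spec N ℚ (CyclotomicField N ℚ)
  have hζk : IsPrimitiveRoot ((IsCyclotomicExtension.zeta N ℚ (CyclotomicField N ℚ)) ^ k) N :=
    (hζ.pow_iff_coprime (NeZero.pos N) k).mpr hk
  have hirr : Irreducible (Polynomial.cyclotomic N ℚ) :=
    Polynomial.cyclotomic.irreducible_rat (NeZero.pos N)
  let σ : CyclotomicField N ℚ ≃ₐ[ℚ] CyclotomicField N ℚ :=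
    IsCyclotomicExtension.fromZetaAut hζk hirr
  have hσ : σ (IsCyclotomicExtension.zeta N ℚ (CyclotomicField N ℚ))
      = (IsCyclotomicExtension.zeta N ℚ (CyclotomicField N ℚ)) ^ k :=
    IsCyclotomicExtension.fromZetaAut_spec hζk hirr
  obtain ⟨τ, hτ⟩ := exists_ringEquiv_extending φ₀.toRingHom σ.toRingEquiv
  refine ⟨τ, fun μ hμ => ?_⟩
  have h0 : IsPrimitiveRoot (φ₀ (IsCyclotomicExtension.zeta N ℚ (CyclotomicField N ℚ))) N :=
    hζ.map_of_injective φ₀.toRingHom.injective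
  obtain ⟨j, -, hj⟩ := h0.eq_pow_of_pow_eq_one hμ
  have h1 : τ (φ₀ ((IsCyclotomicExtension.zeta N ℚ (CyclotomicField N ℚ)) ^ j))
      = φ₀ (σ ((IsCyclotomicExtension.zeta N ℚ (CyclotomicField N ℚ)) ^ j)) :=
    hτ _
  calc τ μ = τ (φ₀ ((IsCyclotomicExtension.zeta N ℚ (CyclotomicField N ℚ)) ^ j)) := by
        rw [map_pow, hj]
    _ = φ₀ (σ ((IsCyclotomicExtension.zeta N ℚ (CyclotomicField N ℚ)) ^ j)) := h1
    _ = φ₀ (((IsCyclotomicExtension.zeta N ℚ (CyclotomicField N ℚ)) ^ k) ^ j) := by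
        rw [map_pow, hσ]
    _ = ((φ₀ (IsCyclotomicExtension.zeta N ℚ (CyclotomicField N ℚ))) ^ j) ^ k := by
        rw [map_pow, map_pow, ← pow_mul, ← pow_mul, mul_comm]
    _ = μ ^ k := by rw [hj]

theorem isCharacter_galois {G : Type*} [Group G] [Finite G] {χ : G → ℂ}
    (hχ : Cfsg.IsCharacter G χ) (k : ℕ) (hk : k.Coprime (Nat.card G)) :
    Cfsg.IsCharacter G (fun g => χ (g ^ k)) := by
  classical
  obtain ⟨n, ρ, rfl⟩ := hχ
  haveI : NeZero (Nat.card G) := ⟨Nat.card_pos.ne'⟩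
  obtain ⟨τ, hτ⟩ := exists_aut_pow (Nat.card G) k hk
  let ρ' : Representation ℂ G (Fin n → ℂ) :=
    (MonoidHomClass.toMonoidHom (Matrix.toLinAlgEquiv' : Matrix (Fin n) (Fin n) ℂ ≃ₐ[ℂ] _)).comp
      ((MonoidHomClass.toMonoidHom (τ.toRingHom.mapMatrix (m := Fin n))).comp
        ((MonoidHomClass.toMonoidHom
          (LinearMap.toMatrixAlgEquiv' : _ ≃ₐ[ℂ] Matrix (Fin n) (Fin n) ℂ)).comp ρ))
  refine ⟨n, ρ', ?_⟩
  funext g
  have h1 : ρ'.character g = τ (ρ.character g) := by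
    show LinearMap.trace ℂ _ (Matrix.toLin' ((LinearMap.toMatrix' (ρ g)).map τ)) = _
    rw [Matrix.trace_toLin'_eq]
    have h2 : ρ.character g = (LinearMap.toMatrix' (ρ g)).trace := by
      show LinearMap.trace ℂ _ (ρ g) = _
      conv_lhs => rw [← Matrix.toLin'_toMatrix' (ρ g)]
      rw [Matrix.trace_toLin'_eq]
    rw [h2]
    exact (AddMonoidHom.map_trace τ.toAddMonoidHom (LinearMap.toMatrix' (ρ g))).symm
  rw [h1]
  obtain ⟨S, d, hS1, -, -, hS4, -⟩ := char_eigen ρ g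
  have hg1 : ρ.character g = ∑ μ ∈ S, μ * (d μ : ℂ) := by
    have := hS4 1
    simpa using this
  rw [hg1, hS4 k, map_sum]
  apply Finset.sum_congr rfl
  intro μ hμ
  have hμN : μ ^ Nat.card G = 1 := by
    obtain ⟨c, hc⟩ := orderOf_dvd_natCard g
    rw [hc, pow_mul, hS1 μ hμ, one_pow]
  rw [map_mul, hτ μ hμN, map_natCast]

theorem isIrrCharacter_galois {G : Type*} [Group G] [Finite G] (χ : Cfsg.IrrCharacter G)
    (k : ℕ) (hk : k.Coprime (Nat.card G)) :
    Cfsg.IsIrrCharacter G (fun g => χ.1 (g ^ k)) := by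
  classical
  haveI : Fintype G := Fintype.ofFinite G
  apply isIrrCharacter_of_norm_one (isCharacter_galois (isCharacter_of_irr χ.2) k hk)
  have hself := irr_inner_self χ
  unfold Cfsg.classInner at hself ⊢
  rw [← hself]
  congr 1
  exact Equiv.sum_comp (powCoprime hk.symm) (fun g => χ.1 g * (starRingEnd ℂ) (χ.1 g))

end Cfsg.Agent.Lib.Helper7.Gal
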