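import Mathlib
import Cfsg.Agent.Lib.Helper7.PSolv
import Cfsg.Agent.Lib.Helper7.PPrime
import Cfsg.Agent.Lib.Lead.PCore2
import Cfsg.Agent.Lib.Lead.CoprimeSylow

/-!
In a `p`-solvable group, a Sylow `q`-subgroup normalized by a Sylow `p`-subgroup lies in
`O_{p'}(G)`.
-/

namespace Cfsg.Agent.Lib.Helper7.PS

universe u

/-- a subgroup `D` centralizing the normal `p`-subgroup `R`, with `DR/R` of order prime to `p`,
lies in `R` when `O_{p'}(G) = 1` and `D` is normal -/
theorem le_of_centralizes {G : Type*} [Group G] [Finite G] (p : ℕ) [Fact p.Prime]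
    (hN : Cfsg.pPrimeCore p G = ⊥) (R : Subgroup G) [R.Normal] (hRp : IsPGroup p R)
    (D : Subgroup G) [D.Normal] (hDC : D ≤ Subgroup.centralizer (R : Set G))
    (hcop : (Nat.card (D.map (QuotientGroup.mk' R))).Coprime p) : D ≤ R := by
  have hp : p.Prime := Fact.out
  let φ : ↥D →* G ⧸ R := (QuotientGroup.mk' R).comp D.subtype
  have hmem : ∀ z : ↥D, z ∈ φ.ker ↔ (z : G) ∈ R := by
    intro z
    rw [MonoidHom.mem_ker]
    exact QuotientGroup.eq_one_iff (z : G)
  have hrange : φ.range = D.map (QuotientGroup.mk' R) := by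
    rw [MonoidHom.range_comp, Subgroup.range_subtype]
  have hindex : φ.ker.index = Nat.card (D.map (QuotientGroup.mk' R)) := by
    rw [Subgroup.index_ker, hrange]
  have hZp : IsPGroup p φ.ker := by
    have h1 : φ.ker = R.comap D.subtype := by
      ext z
      rw [hmem, Subgroup.mem_comap]
      rfl
    rw [h1]
    exact hRp.comap_of_injective D.subtype D.subtype_injective
  obtain ⟨a, ha⟩ := IsPGroup.iff_card.mp hZp
  have hcop' : Nat.Coprime (Nat.card φ.ker) φ.ker.index := by
    rw [ha, hindex]
    exact Nat.Coprime.pow_left a hcop.symm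
  obtain ⟨H, hH⟩ := Subgroup.exists_right_complement'_of_coprime hcop'
  have hcentral : ∀ z ∈ φ.ker, ∀ d : ↥D, z * d = d * z := by
    intro z hz d
    apply Subtype.ext
    have h1 := Subgroup.mem_centralizer_iff.mp (hDC d.2) (z : G) ((hmem z).mp hz)
    exact h1
  haveI hHn : H.Normal := by
    constructor
    intro h hh d
    obtain ⟨⟨z, h'⟩, hzh, -⟩ := hH.existsUnique d
    have hd : d = (z : ↥D) * (h' : ↥D) := hzh.symm
    have hz := hcentral (z : ↥D) z.2
    rw [hd]
    have e : (z : ↥D) * (h' : ↥D) * h * ((z : ↥D) * (h' : ↥D))⁻¹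
        = (h' : ↥D) * h * (h' : ↥D)⁻¹ := by
      calc (z : ↥D) * (h' : ↥D) * h * ((z : ↥D) * (h' : ↥D))⁻¹
          = (z : ↥D) * ((h' : ↥D) * h * (h' : ↥D)⁻¹) * (z : ↥D)⁻¹ := by group
        _ = ((h' : ↥D) * h * (h' : ↥D)⁻¹) * (z : ↥D) * (z : ↥D)⁻¹ := by rw [hz]
        _ = (h' : ↥D) * h * (h' : ↥D)⁻¹ := by group
    rw [e]
    exact H.mul_mem (H.mul_mem h'.2 hh) (H.inv_mem h'.2)
  have hHcard : Nat.card H = φ.ker.index := by
    have h1 := hH.card_mul_card
    have h2 := φ.ker.card_mul_index
    have hpos : 0 < Nat.card φ.ker := Nat.card_pos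
    have : Nat.card φ.ker * Nat.card H = Nat.card φ.ker * φ.ker.index := by rw [h1, h2]
    exact Nat.eq_of_mul_eq_mul_left hpos this
  have hHcop : (Nat.card H).Coprime p := by rw [hHcard, hindex]; exact hcop
  have hHle := map_le_pPrimeCore_of_normal p D H hHcop
  rw [hN, le_bot_iff, Subgroup.map_eq_bot_iff_of_injective H D.subtype_injective] at hHle
  have hidx1 : φ.ker.index = 1 := by
    rw [← hHcard, hHle, Subgroup.card_bot]
  have htop : φ.ker = ⊤ := Subgroup.index_eq_one.mp hidx1
  intro d hd
  have : (⟨d, hd⟩ : ↥D) ∈ φ.ker := by rw [htop]; exact Subgroup.mem_top _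
  exact (hmem ⟨d, hd⟩).mp this

/-- in a `p`-solvable group, a Sylow `q`-subgroup (`q ≠ p`) normalized by a Sylow `p`-subgroup
lies in `O_{p'}(G)` -/
theorem sylow_le_pPrimeCore (p q : ℕ) [Fact p.Prime] [Fact q.Prime] (hpq : p ≠ q) :
    ∀ (n : ℕ) (G : Type u) [Group G] [Finite G], Nat.card G = n → Cfsg.IsPSolvable p G →
      ∀ (P : Sylow p G) (Q : Sylow q G),
        (P : Subgroup G) ≤ Subgroup.normalizer ((Q : Subgroup G) : Set G) →
        (Q : Subgroup G) ≤ Cfsg.pPrimeCore p G := by
  have hp : p.Prime := Fact.out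
  have hq : q.Prime := Fact.out
  intro n
  induction n using Nat.strong_induction_on with
  | _ n ih =>
    intro G _ _ hn hsolv P Q hPQ
    by_cases hN : Cfsg.pPrimeCore p G = ⊥
    · by_cases htriv : Subsingleton G
      · intro x _
        rw [Subsingleton.elim x 1]
        exact Subgroup.one_mem _
      · haveI : Nontrivial G := not_subsingleton_iff_nontrivial.mp htriv
        obtain ⟨R, hRn, hR1, hR⟩ := exists_normal_of_isPSolvable p hsolv
        haveI := hRn
        have hRp : ∃ m : ℕ, Nat.card R = p ^ m := by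
          rcases hR with h | h
          · exact h
          · exfalso
            apply hR1
            rw [eq_bot_iff, ← hN]
            exact Cfsg.Agent.Lib.Helper7.le_pPrimeCore p R h
        obtain ⟨m, hm⟩ := hRp
        have hRpg : IsPGroup p R := IsPGroup.of_card hm
        have hRP : R ≤ (P : Subgroup G) := hRpg.le_sylow_of_normal P
        have hcopq : Nat.Coprime (p ^ m) (q ^ (Nat.card G).factorization q) :=
          Nat.Coprime.pow _ _ ((Nat.coprime_primes hp hq).mpr hpq)
        have hRQ : ∀ x : G, x ∈ R → x ∈ (Q : Subgroup G) → x = 1 := by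
          intro x hxR hxQ
          have ho1 : orderOf x ∣ p ^ m := by
            rw [← hm]; exact Subgroup.orderOf_dvd_natCard R hxR
          have ho2 : orderOf x ∣ q ^ (Nat.card G).factorization q := by
            rw [← Sylow.card_eq_multiplicity Q]; exact Subgroup.orderOf_dvd_natCard _ hxQ
          exact orderOf_eq_one_iff.mp (Nat.eq_one_of_dvd_coprimes hcopq ho1 ho2)
        have hQC : (Q : Subgroup G) ≤ Subgroup.centralizer (R : Set G) := by
          intro x hx
          rw [Subgroup.mem_centralizer_iff]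
          intro r hr
          have h1 : r * x * r⁻¹ * x⁻¹ ∈ (Q : Subgroup G) := by
            have := (Subgroup.mem_normalizer_iff.mp (hPQ (hRP hr)) x).mp hx
            exact (Q : Subgroup G).mul_mem this ((Q : Subgroup G).inv_mem hx)
          have h2 : r * x * r⁻¹ * x⁻¹ ∈ R := by
            have h3 : x * r⁻¹ * x⁻¹ ∈ R := hRn.conj_mem _ (R.inv_mem hr) x
            have e : r * x * r⁻¹ * x⁻¹ = r * (x * r⁻¹ * x⁻¹) := by group
            rw [e]
            exact R.mul_mem hr h3
          have h3 := hRQ _ h2 h1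
          calc r * x = (r * x * r⁻¹ * x⁻¹) * x * r := by group
            _ = x * r := by rw [h3, one_mul]
        have hRcard : 1 < Nat.card R := (Subgroup.one_lt_card_iff_ne_bot R).mpr hR1
        have hidx := Subgroup.index_mul_card R
        have hlt : Nat.card (G ⧸ R) < n := by
          rw [← hn, ← Subgroup.index_eq_card, ← hidx]
          have hpos : 0 < R.index := Nat.pos_of_ne_zero Subgroup.index_ne_zero_of_finite
          nlinarith
        have hπ : Function.Surjective (QuotientGroup.mk' R) := QuotientGroup.mk'_surjective R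
        have hsolv' : Cfsg.IsPSolvable p (G ⧸ R) :=
          isPSolvable_of_surjective p (QuotientGroup.mk' R) hπ hsolv
        have hPQ' : ((P.mapSurjective hπ : Sylow p (G ⧸ R)) : Subgroup (G ⧸ R)) ≤
            Subgroup.normalizer
              (((Q.mapSurjective hπ : Sylow q (G ⧸ R)) : Subgroup (G ⧸ R)) : Set (G ⧸ R)) := by
          rw [Sylow.coe_mapSurjective, Sylow.coe_mapSurjective]
          exact (Subgroup.map_mono hPQ).trans (Subgroup.le_normalizer_map (QuotientGroup.mk' R))
        have hIH := ih _ hlt (G ⧸ R) rfl hsolv' (P.mapSurjective hπ) (Q.mapSurjective hπ) hPQ'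
        rw [Sylow.coe_mapSurjective] at hIH
        set M := (Cfsg.pPrimeCore p (G ⧸ R)).comap (QuotientGroup.mk' R) with hM
        have hQM : (Q : Subgroup G) ≤ M := by
          intro x hx
          exact hIH (Subgroup.mem_map_of_mem (QuotientGroup.mk' R) hx)
        haveI hMn : M.Normal :=
          Subgroup.Normal.comap (pPrimeCore_normal' p (G ⧸ R)) (QuotientGroup.mk' R)
        set D := M ⊓ Subgroup.centralizer (R : Set G) with hD
        have hQD : (Q : Subgroup G) ≤ D := le_inf hQM hQC
        have hDcop : (Nat.card (D.map (QuotientGroup.mk' R))).Coprime p := by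
          have h1 : D.map (QuotientGroup.mk' R) ≤ Cfsg.pPrimeCore p (G ⧸ R) := by
            rw [Subgroup.map_le_iff_le_comap]
            exact inf_le_left
          exact Nat.Coprime.coprime_dvd_left (Subgroup.card_dvd_of_le h1)
            (Cfsg.Agent.Lib.Helper7.pPrimeCore_coprime p)
        have hDR : D ≤ R := le_of_centralizes p hN R hRpg D inf_le_right hDcop
        intro x hx
        rw [hRQ x (hDR (hQD hx)) hx]
        exact Subgroup.one_mem _
    · haveI hNn := pPrimeCore_normal' p G
      have hNcard : 1 < Nat.card (Cfsg.pPrimeCore p G) :=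
        (Subgroup.one_lt_card_iff_ne_bot _).mpr hN
      have hidx := Subgroup.index_mul_card (Cfsg.pPrimeCore p G)
      have hlt : Nat.card (G ⧸ Cfsg.pPrimeCore p G) < n := by
        rw [← hn, ← Subgroup.index_eq_card, ← hidx]
        have hpos : 0 < (Cfsg.pPrimeCore p G).index :=
          Nat.pos_of_ne_zero Subgroup.index_ne_zero_of_finite
        nlinarith
      have hπ : Function.Surjective (QuotientGroup.mk' (Cfsg.pPrimeCore p G)) :=
        QuotientGroup.mk'_surjective _
      have hsolv' : Cfsg.IsPSolvable p (G ⧸ Cfsg.pPrimeCore p G) :=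
        isPSolvable_of_surjective p _ hπ hsolv
      have hPQ' : ((P.mapSurjective hπ : Sylow p (G ⧸ Cfsg.pPrimeCore p G)) :
            Subgroup (G ⧸ Cfsg.pPrimeCore p G)) ≤
          Subgroup.normalizer
            (((Q.mapSurjective hπ : Sylow q (G ⧸ Cfsg.pPrimeCore p G)) :
              Subgroup (G ⧸ Cfsg.pPrimeCore p G)) : Set (G ⧸ Cfsg.pPrimeCore p G)) := by
        rw [Sylow.coe_mapSurjective, Sylow.coe_mapSurjective]
        exact (Subgroup.map_mono hPQ).trans (Subgroup.le_normalizer_map _)
      have hIH := ih _ hlt (G ⧸ Cfsg.pPrimeCore p G) rfl hsolv' (P.mapSurjective hπ)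
        (Q.mapSurjective hπ) hPQ'
      rw [Sylow.coe_mapSurjective, Cfsg.Agent.Lib.Lead.pPrimeCore_quotient p] at hIH
      intro x hx
      have h1 := hIH (Subgroup.mem_map_of_mem (QuotientGroup.mk' (Cfsg.pPrimeCore p G)) hx)
      rw [Subgroup.mem_bot] at h1
      exact (QuotientGroup.eq_one_iff x).mp h1

end Cfsg.Agent.Lib.Helper7.PS
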