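import Mathlib
import Cfsg.Agent.S4496
import Cfsg.Agent.Lib.Helper7.Basic

set_option autoImplicit false

namespace Cfsg.Agent.Lib.Helper7.SelfCent

open Cfsg.Agent.S4496

/-- a nontrivial element of `⟨x⟩` (x of prime order) has order `p` -/
theorem order_of_mem {G : Type*} [Group G] (p : ℕ) (hp : p.Prime) (x : G)
    (hx : orderOf x = p) (y : G) (hy : y ∈ Subgroup.zpowers x) (hy1 : y ≠ 1) : orderOf y = p := by
  have h1 : orderOf y ∣ p := by
    rw [← hx]; exact orderOf_dvd_of_mem_zpowers hy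
  rcases (Nat.dvd_prime hp).mp h1 with h | h
  · exact absurd (orderOf_eq_one_iff.mp h) hy1
  · exact h

/-- a nontrivial element of `⟨x⟩` generates it -/
theorem zpowers_eq_of_mem {G : Type*} [Group G] [Finite G] (p : ℕ) (hp : p.Prime) (x : G)
    (hx : orderOf x = p) (y : G) (hy : y ∈ Subgroup.zpowers x) (hy1 : y ≠ 1) :
    Subgroup.zpowers y = Subgroup.zpowers x := by
  apply Subgroup.eq_of_le_of_card_ge
  · exact (Subgroup.zpowers_le).mpr hy
  · rw [Nat.card_zpowers, Nat.card_zpowers, hx, order_of_mem p hp x hx y hy hy1]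

/-- the centralizer of a nontrivial element of `⟨x⟩` is `⟨x⟩` -/
theorem mem_zpowers_of_comm {G : Type*} [Group G] [Finite G] (p : ℕ) (hp : p.Prime) (x : G)
    (hx : orderOf x = p) (hC : Subgroup.centralizer ({x} : Set G) = Subgroup.zpowers x)
    (y : G) (hy : y ∈ Subgroup.zpowers x) (hy1 : y ≠ 1) (c : G) (hc : c * y = y * c) :
    c ∈ Subgroup.zpowers x := by
  have hxy : x ∈ Subgroup.zpowers y := by
    rw [zpowers_eq_of_mem p hp x hx y hy hy1]; exact Subgroup.mem_zpowers x
  obtain ⟨j, rfl⟩ := Subgroup.mem_zpowers_iff.mp hxy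
  rw [← hC, Subgroup.mem_centralizer_iff]
  intro w hw
  rw [Set.mem_singleton_iff] at hw
  subst hw
  have hcomm : Commute c y := hc
  exact ((hcomm.zpow_right j).eq).symm

theorem zpowers_comm {G : Type*} [Group G] (x a b : G) (ha : a ∈ Subgroup.zpowers x)
    (hb : b ∈ Subgroup.zpowers x) : a * b = b * a := by
  obtain ⟨i, rfl⟩ := Subgroup.mem_zpowers_iff.mp ha
  obtain ⟨j, rfl⟩ := Subgroup.mem_zpowers_iff.mp hb
  rw [← zpow_add, ← zpow_add, add_comm]

/-- conjugating a nontrivial element of `⟨x⟩` into `⟨x⟩` forces the conjugator to normalize -/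
theorem mem_normalizer_of_conj {G : Type*} [Group G] [Finite G] (p : ℕ) (hp : p.Prime) (x : G)
    (hx : orderOf x = p) (y : G) (hy : y ∈ Subgroup.zpowers x) (hy1 : y ≠ 1) (c : G)
    (hc : c * y * c⁻¹ ∈ Subgroup.zpowers x) :
    c ∈ Subgroup.normalizer ((Subgroup.zpowers x : Subgroup G) : Set G) := by
  have hy' : c * y * c⁻¹ ≠ 1 := by
    intro h
    apply hy1
    have : y = c⁻¹ * (c * y * c⁻¹) * c := by group
    rw [this, h]; group
  have e1 := zpowers_eq_of_mem p hp x hx y hy hy1
  have e2 := zpowers_eq_of_mem p hp x hx _ hc hy'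
  rw [Subgroup.mem_normalizer_iff]
  intro h
  constructor
  · intro hh
    rw [← e1] at hh
    obtain ⟨i, rfl⟩ := Subgroup.mem_zpowers_iff.mp hh
    rw [← e2]
    have : c * y ^ i * c⁻¹ = (c * y * c⁻¹) ^ i := by
      rw [← MulAut.conj_apply, map_zpow, MulAut.conj_apply]
    rw [this]
    exact Subgroup.zpow_mem_zpowers _ i
  · intro hh
    rw [← e2] at hh
    obtain ⟨i, hi⟩ := Subgroup.mem_zpowers_iff.mp hh
    have : c * y ^ i * c⁻¹ = (c * y * c⁻¹) ^ i := by
      rw [← MulAut.conj_apply, map_zpow, MulAut.conj_apply]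
    rw [← this] at hi
    have h2 : y ^ i = h := by
      have := congrArg (fun w => c⁻¹ * w * c) hi
      beta_reduce at this
      have l : c⁻¹ * (c * y ^ i * c⁻¹) * c = y ^ i := by group
      have r : c⁻¹ * (c * h * c⁻¹) * c = h := by group
      rw [l, r] at this
      exact this
    rw [← h2, ← e1]
    exact Subgroup.zpow_mem_zpowers _ i

theorem exists_conj_mem {G : Type*} [Group G] [Finite G] (p : ℕ) (hp : p.Prime) (x : G)
    (hx : orderOf x = p) (hC : Subgroup.centralizer ({x} : Set G) = Subgroup.zpowers x)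
    (g : G) (hg : orderOf g = p) : ∃ a : G, a * g * a⁻¹ ∈ Subgroup.zpowers x := by
  haveI : Fact p.Prime := ⟨hp⟩
  obtain ⟨P, hP⟩ := sylow_eq_zpowers p hp x hx hC
  have hpg : IsPGroup p (Subgroup.zpowers g) :=
    IsPGroup.of_card (n := 1) (by rw [Nat.card_zpowers, hg, pow_one])
  obtain ⟨Q, hQ⟩ := hpg.exists_le_sylow
  obtain ⟨a, ha⟩ := MulAction.exists_smul_eq G P Q
  have hgQ : g ∈ (Q : Subgroup G) := hQ (Subgroup.mem_zpowers _)
  rw [← ha, Sylow.coe_subgroup_smul, Cfsg.Agent.Lib.Helper7.mem_conj_smul_iff, hP] at hgQ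
  exact ⟨a⁻¹, by simpa using hgQ⟩

/-- `t * e = p - 1`: the classes of elements of order `p` correspond to the orbits of
`N_G(⟨x⟩)` on the nontrivial elements of `⟨x⟩`, all of length `e = [N_G(⟨x⟩) : ⟨x⟩]`. -/
theorem class_count {G : Type*} [Group G] [Finite G] (p : ℕ) (hp : p.Prime) (x : G)
    (hx : orderOf x = p) (hC : Subgroup.centralizer ({x} : Set G) = Subgroup.zpowers x) :
    Nat.card {C : ConjClasses G // ∃ g ∈ C.carrier, orderOf g = p} *
      (Subgroup.zpowers x).relIndex
        (Subgroup.normalizer ((Subgroup.zpowers x : Subgroup G) : Set G)) = p - 1 := by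
  classical
  set P := Subgroup.zpowers x with hPdef
  set N := Subgroup.normalizer (P : Set G) with hNdef
  let Y := {y : G // y ∈ P ∧ y ≠ 1}
  let X := {C : ConjClasses G // ∃ g ∈ C.carrier, orderOf g = p}
  have hYcard : Nat.card Y = p - 1 := by
    have e : Y ≃ {y : P // y ≠ 1} :=
      { toFun := fun y => ⟨⟨y.1, y.2.1⟩, fun h => y.2.2 (congrArg Subtype.val h)⟩
        invFun := fun y => ⟨y.1.1, y.1.2, fun h => y.2 (Subtype.ext h)⟩
        left_inv := fun y => rfl
        right_inv := fun y => rfl }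
    rw [Nat.card_congr e]
    have h1 : Nat.card (Option {y : P // y ≠ 1}) = Nat.card P :=
      Nat.card_congr (Equiv.optionSubtypeNe 1)
    rw [Finite.card_option, card_zpowers_eq p x hx] at h1
    omega
  let f : Y → X := fun y =>
    ⟨ConjClasses.mk y.1, y.1, ConjClasses.mem_carrier_mk, order_of_mem p hp x hx y.1 y.2.1 y.2.2⟩
  have hfib : ∀ C : X, Nat.card {y : Y // f y = C} = P.relIndex N := by
    intro C
    obtain ⟨C, g, hgC, hgord⟩ := C
    obtain ⟨a, ha⟩ := exists_conj_mem p hp x hx hC g hgord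
    have hne : a * g * a⁻¹ ≠ 1 := by
      intro h
      have h1 : g = 1 := by
        have e : g = a⁻¹ * (a * g * a⁻¹) * a := by group
        rw [e, h]; group
      rw [h1, orderOf_one] at hgord
      exact hp.one_lt.ne hgord
    have hmk : ConjClasses.mk (a * g * a⁻¹) = C := by
      rw [← ConjClasses.mem_carrier_iff_mk_eq.mp hgC]
      rw [ConjClasses.mk_eq_mk_iff_isConj, isConj_iff]
      exact ⟨a⁻¹, by group⟩
    obtain ⟨y₀, hy₀⟩ : ∃ y₀ : G, y₀ = a * g * a⁻¹ := ⟨_, rfl⟩
    rw [← hy₀] at ha hne hmk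
    let φ : N → {y : Y // f y = ⟨C, g, hgC, hgord⟩} := fun n =>
      ⟨⟨(n : G) * y₀ * (n : G)⁻¹, (Subgroup.mem_normalizer_iff.mp n.2 y₀).mp ha, by
          intro h
          apply hne
          have e : y₀ = (n : G)⁻¹ * ((n : G) * y₀ * (n : G)⁻¹) * (n : G) := by group
          rw [e, h]; group⟩, by
        apply Subtype.ext
        show ConjClasses.mk ((n : G) * y₀ * (n : G)⁻¹) = C
        rw [← hmk, ConjClasses.mk_eq_mk_iff_isConj, isConj_iff]
        exact ⟨(n : G)⁻¹, by group⟩⟩
    have hφ : ∀ n n' : N, φ n = φ n' ↔ (n⁻¹ * n' : N) ∈ P.subgroupOf N := by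
      intro n n'
      rw [Subgroup.mem_subgroupOf]
      constructor
      · intro h
        have h1 : (n : G) * y₀ * (n : G)⁻¹ = (n' : G) * y₀ * (n' : G)⁻¹ :=
          congrArg (fun z => (z.1.1 : G)) h
        apply mem_zpowers_of_comm p hp x hx hC y₀ ha hne
        push_cast
        calc (n : G)⁻¹ * n' * y₀ = (n : G)⁻¹ * (n' * y₀ * (n' : G)⁻¹) * n' := by group
          _ = (n : G)⁻¹ * (n * y₀ * (n : G)⁻¹) * n' := by rw [h1]
          _ = y₀ * ((n : G)⁻¹ * n') := by group
      · intro h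
        apply Subtype.ext; apply Subtype.ext
        show (n : G) * y₀ * (n : G)⁻¹ = (n' : G) * y₀ * (n' : G)⁻¹
        have hc := zpowers_comm x _ _ h ha
        push_cast at hc
        calc (n : G) * y₀ * (n : G)⁻¹ = n * (y₀ * ((n : G)⁻¹ * n')) * (n' : G)⁻¹ := by group
          _ = n * ((n : G)⁻¹ * n' * y₀) * (n' : G)⁻¹ := by rw [hc]
          _ = n' * y₀ * (n' : G)⁻¹ := by group
    have hsurj : Function.Surjective φ := by
      rintro ⟨⟨y, hyP, hy1⟩, hy⟩
      have hmk' : ConjClasses.mk y = C := congrArg Subtype.val hy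
      rw [← hmk, ConjClasses.mk_eq_mk_iff_isConj, isConj_comm, isConj_iff] at hmk'
      obtain ⟨c, hc⟩ := hmk'
      have hcN : c ∈ N := mem_normalizer_of_conj p hp x hx y₀ ha hne c (by rw [hc]; exact hyP)
      refine ⟨⟨c, hcN⟩, ?_⟩
      apply Subtype.ext; apply Subtype.ext
      exact hc
    let ψ : N ⧸ (P.subgroupOf N) → {y : Y // f y = ⟨C, g, hgC, hgord⟩} :=
      Quotient.lift φ (by
        intro n n' h
        rw [hφ]
        exact QuotientGroup.leftRel_apply.mp h)
    have hψ : Function.Bijective ψ := by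
      constructor
      · intro q q'
        induction q using QuotientGroup.induction_on
        induction q' using QuotientGroup.induction_on
        intro h
        apply QuotientGroup.eq.mpr
        exact (hφ _ _).mp h
      · intro y
        obtain ⟨n, hn⟩ := hsurj y
        exact ⟨QuotientGroup.mk n, hn⟩
    rw [← Nat.card_congr (Equiv.ofBijective ψ hψ)]
    rfl
  haveI : Fintype X := Fintype.ofFinite X
  have hsum : Nat.card Y = ∑ C : X, Nat.card {y : Y // f y = C} := by
    rw [← Nat.card_sigma]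
    exact Nat.card_congr (Equiv.sigmaFiberEquiv f).symm
  rw [hsum] at hYcard
  simp_rw [hfib] at hYcard
  rw [Finset.sum_const, Finset.card_univ, smul_eq_mul, ← Nat.card_eq_fintype_card] at hYcard
  exact hYcard

open scoped commutatorElement in
/-- Burnside: if `N_G(⟨x⟩) ≤ ⟨x⟩` then `p ∤ |G'|`. -/
theorem not_dvd_card_commutator_of_normalizer_le {G : Type*} [Group G] [Finite G] (p : ℕ)
    (hp : p.Prime) (x : G) (hx : orderOf x = p)
    (hC : Subgroup.centralizer ({x} : Set G) = Subgroup.zpowers x)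
    (hN : Subgroup.normalizer ((Subgroup.zpowers x : Subgroup G) : Set G) ≤ Subgroup.zpowers x) :
    ¬ p ∣ Nat.card (commutator G) := by
  haveI : Fact p.Prime := ⟨hp⟩
  obtain ⟨P, hP⟩ := sylow_eq_zpowers p hp x hx hC
  have hPN : Subgroup.normalizer (P : Set G) ≤ Subgroup.centralizer (P : Set G) := by
    show Subgroup.normalizer ((P : Subgroup G) : Set G) ≤
      Subgroup.centralizer ((P : Subgroup G) : Set G)
    rw [hP]
    intro n hn
    have hn' := hN hn
    rw [Subgroup.mem_centralizer_iff]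
    intro h hh
    exact zpowers_comm x h n hh hn'
  have hK := MonoidHom.not_dvd_card_ker_transferSylow P hPN
  have hle : commutator G ≤ (MonoidHom.transferSylow P hPN).ker := by
    rw [commutator_def, Subgroup.commutator_le]
    intro a _ b _
    rw [MonoidHom.mem_ker, map_commutatorElement, commutatorElement_def]
    have hcomm : ∀ u v : (P : Subgroup G), u * v = v * u := by
      intro u v
      apply Subtype.ext
      have hu : (u : G) ∈ Subgroup.zpowers x := by rw [← hP]; exact u.2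
      have hv : (v : G) ∈ Subgroup.zpowers x := by rw [← hP]; exact v.2
      exact zpowers_comm x _ _ hu hv
    rw [hcomm (MonoidHom.transferSylow P hPN a) (MonoidHom.transferSylow P hPN b)]
    group
  intro hdvd
  exact hK (hdvd.trans (Subgroup.card_dvd_of_le hle))

open scoped commutatorElement in
theorem quot_commutator_comm {G : Type*} [Group G] (a b : G ⧸ commutator G) : a * b = b * a := by
  induction a using QuotientGroup.induction_on with
  | H u =>
    induction b using QuotientGroup.induction_on with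
    | H v =>
      rw [← QuotientGroup.mk_mul, ← QuotientGroup.mk_mul]
      apply QuotientGroup.eq.mpr
      have h : (u * v)⁻¹ * (v * u) = ⁅v⁻¹, u⁻¹⁆ := by
        rw [commutatorElement_def]; group
      rw [h, commutator_def]
      exact Subgroup.commutator_mem_commutator (Subgroup.mem_top _) (Subgroup.mem_top _)

/-- a normal `p'`-subgroup meets `N_G(⟨x⟩)` trivially -/
theorem eq_one_of_mem_normalizer_of_mem {G : Type*} [Group G] [Finite G] (p : ℕ)
    (hp : p.Prime) (x : G) (hx : orderOf x = p)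
    (hC : Subgroup.centralizer ({x} : Set G) = Subgroup.zpowers x) (S : Subgroup G) [S.Normal]
    (hnd : ¬ p ∣ Nat.card S) (s : G)
    (hsN : s ∈ Subgroup.normalizer ((Subgroup.zpowers x : Subgroup G) : Set G)) (hsS : s ∈ S) :
    s = 1 := by
  obtain ⟨k, hk⟩ := exists_zpow_of_normalizer x s hsN
  have h1 : s * x * s⁻¹ * x⁻¹ ∈ S ⊓ Subgroup.zpowers x := by
    refine ⟨comm_x_mem x S s hsS, ?_⟩
    rw [hk]
    exact Subgroup.mul_mem _ (Subgroup.zpow_mem_zpowers x k)
      (Subgroup.inv_mem _ (Subgroup.mem_zpowers x))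
  rw [inf_bot p hp x hx S hnd, Subgroup.mem_bot] at h1
  have h2 : s * x = x * s := by
    calc s * x = (s * x * s⁻¹ * x⁻¹) * x * s := by group
      _ = x * s := by rw [h1]; group
  exact cent_inf p hp x hx hC S hnd s hsS h2

/-- if `p ∤ |G'|` then `G/G'` has order `p`. -/
theorem index_commutator_of_not_dvd {G : Type*} [Group G] [Finite G] (p : ℕ)
    (hp : p.Prime) (x : G) (hx : orderOf x = p)
    (hC : Subgroup.centralizer ({x} : Set G) = Subgroup.zpowers x)
    (hnd : ¬ p ∣ Nat.card (commutator G)) : (commutator G).index = p := by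
  have h3 := order_quot p hp x hx hC (commutator G) hnd
  have h4 := cent_quot p hp x hx hC (commutator G) hnd
  have htop : Subgroup.centralizer ({(QuotientGroup.mk x : G ⧸ commutator G)} : Set _) = ⊤ := by
    rw [eq_top_iff]
    intro q _
    rw [Subgroup.mem_centralizer_iff]
    intro h _
    exact quot_commutator_comm _ _
  rw [htop] at h4
  rw [Subgroup.index_eq_card, ← Subgroup.card_top (G := G ⧸ commutator G), h4, Nat.card_zpowers, h3]

/-- if `p ∤ |G'|` then `N_G(⟨x⟩) = ⟨x⟩`. -/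
theorem normalizer_le_of_not_dvd {G : Type*} [Group G] [Finite G] (p : ℕ)
    (hp : p.Prime) (x : G) (hx : orderOf x = p)
    (hC : Subgroup.centralizer ({x} : Set G) = Subgroup.zpowers x)
    (hnd : ¬ p ∣ Nat.card (commutator G)) :
    Subgroup.normalizer ((Subgroup.zpowers x : Subgroup G) : Set G) ≤ Subgroup.zpowers x := by
  intro n hn
  have h4 := cent_quot p hp x hx hC (commutator G) hnd
  have hmem : (QuotientGroup.mk n : G ⧸ commutator G) ∈
      Subgroup.zpowers (QuotientGroup.mk x : G ⧸ commutator G) := by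
    rw [← h4, Subgroup.mem_centralizer_iff]
    intro h _
    exact quot_commutator_comm _ _
  obtain ⟨k, hk⟩ := Subgroup.mem_zpowers_iff.mp hmem
  have hs : (x ^ k)⁻¹ * n ∈ commutator G := by
    apply QuotientGroup.eq.mp
    rw [QuotientGroup.mk_zpow]; exact hk
  have hsN : (x ^ k)⁻¹ * n ∈ Subgroup.normalizer ((Subgroup.zpowers x : Subgroup G) : Set G) :=
    Subgroup.mul_mem _ (Subgroup.inv_mem _ (Subgroup.le_normalizer (Subgroup.zpow_mem_zpowers x k))) hn
  have h1 := eq_one_of_mem_normalizer_of_mem p hp x hx hC (commutator G) hnd _ hsN hs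
  have : n = x ^ k := by
    have e : n = x ^ k * ((x ^ k)⁻¹ * n) := by group
    rw [e, h1, mul_one]
  rw [this]
  exact Subgroup.zpow_mem_zpowers x k

/-- if `p ∣ |G'|` then `[G : G'] ≤ e`. -/
theorem index_commutator_le {G : Type*} [Group G] [Finite G] (p : ℕ)
    (hp : p.Prime) (x : G) (hx : orderOf x = p)
    (hC : Subgroup.centralizer ({x} : Set G) = Subgroup.zpowers x)
    (hd : p ∣ Nat.card (commutator G)) :
    (commutator G).index ≤ (Subgroup.zpowers x).relIndex
        (Subgroup.normalizer ((Subgroup.zpowers x : Subgroup G) : Set G)) := by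
  haveI : Fact p.Prime := ⟨hp⟩
  obtain ⟨P, hP⟩ := sylow_eq_zpowers p hp x hx hC
  have hxS := x_mem_of_dvd p hp x hx hC (commutator G) hd
  have hPS : (P : Subgroup G) ≤ commutator G := by rw [hP]; exact (Subgroup.zpowers_le).mpr hxS
  have hfr : Subgroup.normalizer ((Subgroup.zpowers x : Subgroup G) : Set G) ⊔ commutator G = ⊤ := by
    rw [← hP]; exact Sylow.normalizer_sup_eq_top' P hPS
  have h1 : (commutator G).index = (commutator G).relIndex
      (Subgroup.normalizer ((Subgroup.zpowers x : Subgroup G) : Set G)) := by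
    rw [← Subgroup.relIndex_top_right, ← hfr, Subgroup.relIndex_sup_right]
  rw [h1]
  apply Subgroup.relIndex_le_of_le_left
  · exact (Subgroup.zpowers_le).mpr hxS
  · unfold Subgroup.relIndex
    exact Subgroup.index_ne_zero_of_finite

/-- the hypothesis `C_G(x) = ⟨x⟩` passes to subgroups containing `x` -/
theorem hyp_subgroup {G : Type*} [Group G] (x : G)
    (hC : Subgroup.centralizer ({x} : Set G) = Subgroup.zpowers x) (K : Subgroup G)
    (hxK : x ∈ K) :
    Subgroup.centralizer ({(⟨x, hxK⟩ : K)} : Set K) = Subgroup.zpowers (⟨x, hxK⟩ : K) := by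
  apply le_antisymm
  · intro c hc
    rw [Subgroup.mem_centralizer_iff] at hc
    have h1 : (c : G) ∈ Subgroup.centralizer ({x} : Set G) := by
      rw [Subgroup.mem_centralizer_iff]
      intro y hy
      rw [Set.mem_singleton_iff] at hy
      rw [hy]
      exact congrArg Subtype.val (hc ⟨x, hxK⟩ (Set.mem_singleton _))
    rw [hC] at h1
    obtain ⟨k, hk⟩ := Subgroup.mem_zpowers_iff.mp h1
    rw [Subgroup.mem_zpowers_iff]
    exact ⟨k, Subtype.ext (by simpa using hk)⟩
  · rw [Subgroup.zpowers_le, Subgroup.mem_centralizer_iff]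
    intro h hh
    rw [Set.mem_singleton_iff] at hh
    rw [hh]

/-- every element of a normal `p'`-subgroup `S` is a commutator `[u, x]` with `u ∈ S` -/
theorem exists_comm_eq {G : Type*} [Group G] [Finite G] (p : ℕ)
    (hp : p.Prime) (x : G) (hx : orderOf x = p)
    (hC : Subgroup.centralizer ({x} : Set G) = Subgroup.zpowers x) (S : Subgroup G) [S.Normal]
    (hnd : ¬ p ∣ Nat.card S) (s : G) (hs : s ∈ S) : ∃ u ∈ S, u * x * u⁻¹ * x⁻¹ = s := by
  let φ : S → S := fun s => ⟨(s : G) * x * (s : G)⁻¹ * x⁻¹, comm_x_mem x S s s.2⟩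
  have hinj : Function.Injective φ := by
    intro s t hst
    have h1 : (s : G) * x * (s : G)⁻¹ * x⁻¹ = (t : G) * x * (t : G)⁻¹ * x⁻¹ :=
      congrArg Subtype.val hst
    have h3 : (s : G) * x * (s : G)⁻¹ = (t : G) * x * (t : G)⁻¹ := mul_right_cancel h1
    have h2 : ((t : G)⁻¹ * (s : G)) * x = x * ((t : G)⁻¹ * (s : G)) := by
      calc (t : G)⁻¹ * s * x = (t : G)⁻¹ * (s * x * (s : G)⁻¹) * s := by group
        _ = (t : G)⁻¹ * (t * x * (t : G)⁻¹) * s := by rw [h3]
        _ = x * ((t : G)⁻¹ * s) := by group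
    have h4 := cent_inf p hp x hx hC S hnd ((t : G)⁻¹ * s) (S.mul_mem (S.inv_mem t.2) s.2) h2
    apply Subtype.ext
    exact (inv_mul_eq_one.mp h4).symm
  have hsurj : Function.Surjective φ := Finite.injective_iff_surjective.mp hinj
  obtain ⟨u, hu⟩ := hsurj ⟨s, hs⟩
  exact ⟨u, u.2, congrArg Subtype.val hu⟩

theorem orderOf_conj_eq {G : Type*} [Group G] (g y : G) : orderOf (g * y * g⁻¹) = orderOf y := by
  have h := orderOf_injective (MulAut.conj g).toMonoidHom (MulEquiv.injective _) y
  have e : (MulAut.conj g).toMonoidHom y = g * y * g⁻¹ := by simp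
  rw [e] at h; exact h

/-- the number of subgroups of order `p` is the index of `N_G(⟨x⟩)` -/
theorem card_subgroups_eq {G : Type*} [Group G] [Finite G] (p : ℕ) (hp : p.Prime) (x : G)
    (hx : orderOf x = p) (hC : Subgroup.centralizer ({x} : Set G) = Subgroup.zpowers x) :
    Nat.card {H : Subgroup G // Nat.card H = p} =
      (Subgroup.normalizer ((Subgroup.zpowers x : Subgroup G) : Set G)).index := by
  haveI : Fact p.Prime := ⟨hp⟩
  obtain ⟨P, hP⟩ := sylow_eq_zpowers p hp x hx hC
  have hfac : (Nat.card G).factorization p = 1 := by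
    have h1 := Sylow.card_eq_multiplicity P
    have h2 : Nat.card (P : Subgroup G) = p := by rw [hP]; exact card_zpowers_eq p x hx
    rw [h2] at h1
    have h3 : p ^ 1 = p ^ (Nat.card G).factorization p := by rw [pow_one]; exact h1
    exact (Nat.pow_right_injective hp.two_le h3).symm
  have e : {H : Subgroup G // Nat.card H = p} ≃ Sylow p G :=
    { toFun := fun H => Sylow.ofCard H.1 (by rw [H.2, hfac, pow_one])
      invFun := fun Q => ⟨(Q : Subgroup G), by rw [Sylow.card_eq_multiplicity, hfac, pow_one]⟩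
      left_inv := fun H => by apply Subtype.ext; rfl
      right_inv := fun Q => by apply Sylow.ext; rfl }
  rw [Nat.card_congr e, Sylow.card_eq_index_normalizer P, ← hP]
  rfl

open scoped commutatorElement in
/-- commutators of elements of `N_G(⟨x⟩)` lie in `⟨x⟩` -/
theorem comm_mem_zpowers_of_normalizer {G : Type*} [Group G] (x : G)
    (hC : Subgroup.centralizer ({x} : Set G) = Subgroup.zpowers x) (n₁ n₂ : G)
    (h₁ : n₁ ∈ Subgroup.normalizer ((Subgroup.zpowers x : Subgroup G) : Set G))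
    (h₂ : n₂ ∈ Subgroup.normalizer ((Subgroup.zpowers x : Subgroup G) : Set G)) :
    ⁅n₁, n₂⁆ ∈ Subgroup.zpowers x := by
  obtain ⟨k₁, hk₁⟩ := exists_zpow_of_normalizer x n₁ h₁
  obtain ⟨k₂, hk₂⟩ := exists_zpow_of_normalizer x n₂ h₂
  have e1 : (n₁ * n₂) * x * (n₁ * n₂)⁻¹ = x ^ (k₁ * k₂) := by
    have : (n₁ * n₂) * x * (n₁ * n₂)⁻¹ = n₁ * (n₂ * x * n₂⁻¹) * n₁⁻¹ := by group
    rw [this, hk₂, ← MulAut.conj_apply, map_zpow, MulAut.conj_apply, hk₁, ← zpow_mul]
  have e2 : (n₂ * n₁) * x * (n₂ * n₁)⁻¹ = x ^ (k₁ * k₂) := by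
    have : (n₂ * n₁) * x * (n₂ * n₁)⁻¹ = n₂ * (n₁ * x * n₁⁻¹) * n₂⁻¹ := by group
    rw [this, hk₁, ← MulAut.conj_apply, map_zpow, MulAut.conj_apply, hk₂, ← zpow_mul, mul_comm]
  have hc : (n₂ * n₁)⁻¹ * (n₁ * n₂) ∈ Subgroup.centralizer ({x} : Set G) := by
    rw [Subgroup.mem_centralizer_iff]
    intro y hy
    rw [Set.mem_singleton_iff] at hy
    subst hy
    have h3 : (n₁ * n₂) * y * (n₁ * n₂)⁻¹ = (n₂ * n₁) * y * (n₂ * n₁)⁻¹ := by rw [e1, e2]
    calc y * ((n₂ * n₁)⁻¹ * (n₁ * n₂))
        = (n₂ * n₁)⁻¹ * ((n₂ * n₁) * y * (n₂ * n₁)⁻¹) * (n₁ * n₂) := by group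
      _ = (n₂ * n₁)⁻¹ * ((n₁ * n₂) * y * (n₁ * n₂)⁻¹) * (n₁ * n₂) := by rw [h3]
      _ = (n₂ * n₁)⁻¹ * (n₁ * n₂) * y := by group
  rw [hC] at hc
  have h21 : n₂ * n₁ ∈ Subgroup.normalizer ((Subgroup.zpowers x : Subgroup G) : Set G) :=
    Subgroup.mul_mem _ h₂ h₁
  have := (Subgroup.mem_normalizer_iff.mp h21 _).mp hc
  have e : ⁅n₁, n₂⁆ = (n₂ * n₁) * ((n₂ * n₁)⁻¹ * (n₁ * n₂)) * (n₂ * n₁)⁻¹ := by
    rw [commutatorElement_def]; group
  rw [e]; exact this

/-- if `p ∤ |G'|` then `G/G'` is cyclic. -/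
theorem isCyclic_quot_of_not_dvd {G : Type*} [Group G] [Finite G] (p : ℕ)
    (hp : p.Prime) (x : G) (hx : orderOf x = p)
    (hC : Subgroup.centralizer ({x} : Set G) = Subgroup.zpowers x)
    (hnd : ¬ p ∣ Nat.card (commutator G)) : IsCyclic (G ⧸ commutator G) := by
  have h4 := cent_quot p hp x hx hC (commutator G) hnd
  have htop : Subgroup.centralizer ({(QuotientGroup.mk x : G ⧸ commutator G)} : Set _) = ⊤ := by
    rw [eq_top_iff]
    intro q _
    rw [Subgroup.mem_centralizer_iff]
    intro h _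
    exact quot_commutator_comm _ _
  rw [htop] at h4
  exact isCyclic_iff_exists_zpowers_eq_top.mpr ⟨_, h4.symm⟩

end Cfsg.Agent.Lib.Helper7.SelfCent
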